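import Cfsg.Agent.PTT.Defs
import Cfsg.Agent.S0910
import Cfsg.Agent.S0920
import Cfsg.Agent.S0936
import Cfsg.Agent.S0942
import Cfsg.Agent.S0960
import Cfsg.Agent.S4487
import Cfsg.Agent.S2896
import Cfsg.Agent.H81.Frob
import Cfsg.Agent.H34.Defect
import Cfsg.Agent.H86.Reg
import Cfsg.Agent.H22.PSolvable

set_option autoImplicit false
set_option linter.unusedSectionVars false

namespace Cfsg.Agent.PTT

open Subgroup H69 H59

variable {G : Type*} [Group G] [Finite G] {p : ℕ}

theorem mem_B0 {r : ℕ} {M : Ideal AlgInt} (hM : IsPModular r M) (hr : r ∣ Nat.card G)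
    {χ : IrrCharacter G} (hd : ¬ r ∣ charDegree (χ : G → ℂ)) (h1 : χ ≠ H33.oneIrr G)
    (h0 : ∀ g, r ∣ orderOf g → (¬ ∃ k, orderOf g = r ^ k) → (χ : G → ℂ) g = 0) :
    χ ∈ principalBlock M G := by
  classical
  have := hM.2.1
  have := Fintype.ofFinite G
  have hp := hM.1
  by_contra hne
  have e1 := H86.classInner_reg_eq_zero' hM H33.isPBlock_principalBlock hne
    H33.oneIrr_mem_principalBlock
  have e2 := H5.classInner_irr_ne χ.2 (H33.oneIrr G).2 fun e => h1 (Subtype.ext e)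
  rw [classInner, mul_eq_zero, inv_eq_zero, or_iff_right H5.natCard_ne_zero] at e1 e2
  simp only [H33.oneIrr_apply, map_one, mul_one] at e1 e2
  set a := (Nat.card G).factorization r with ha
  have hY : ∀ g : G, g ^ r ^ a = 1 ↔ ∃ k, orderOf g = r ^ k := fun g => by
    rw [← orderOf_dvd_iff_pow_eq_one, Nat.dvd_prime_pow hp]
    refine ⟨fun ⟨k, _, h⟩ => ⟨k, h⟩, fun ⟨k, h⟩ => ⟨k, ?_, h⟩⟩
    exact (hp.pow_dvd_iff_le_factorization Nat.card_pos.ne').1 (h ▸ orderOf_dvd_natCard g)
  have e3 : ∑ g with g ^ r ^ a = 1, (χ : G → ℂ) g = (χ : G → ℂ) 1 := by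
    have : ∑ g, ((χ : G → ℂ) g - pRegularPart r (χ : G → ℂ) g +
        if g = 1 then (χ : G → ℂ) 1 else 0) = (χ : G → ℂ) 1 := by
      rw [Finset.sum_add_distrib, Finset.sum_sub_distrib, e1, e2]; simp
    rw [← this, Finset.sum_filter]
    refine Finset.sum_congr rfl fun g _ => ?_
    by_cases g1 : g = 1
    · subst g1
      simp [H86.reg_one hp]
    rw [if_neg g1, add_zero]
    by_cases hg : r ∣ orderOf g
    · rw [H86.reg_of_singular _ hg, sub_zero]
      split_ifs with h
      · rfl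
      · exact (h0 g hg (mt (hY g).2 h)).symm
    · rw [H86.reg_of_regular _ hg, sub_self, if_neg]
      rw [hY]
      rintro ⟨k, hk⟩
      refine hg (hk ▸ dvd_pow_self r fun e => g1 ?_)
      rwa [e, pow_zero, orderOf_eq_one_iff] at hk
  have e4 : r ∣ (Finset.univ.filter fun g : G => g ^ r ^ a = 1).card := by
    have := H81.dvd_card_pow_eq_one (G := G) (Nat.ordProj_dvd (Nat.card G) r)
    rw [← ha, Nat.card_eq_fintype_card, Fintype.card_subtype] at this
    exact (dvd_pow_self r (hp.factorization_pos_of_dvd Nat.card_pos.ne' hr).ne').trans this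
  have e5 : ∑ g with g ^ r ^ a = 1, ((χ : G → ℂ) g - (χ : G → ℂ) 1) ∈ H32.locMax M :=
    Submodule.sum_mem _ fun g hg => by
      simpa using H33.char_mul_sub_mem hM (H5.isCharacter_of_isIrr χ.2) (Commute.one_right g)
        ((hY g).1 (Finset.mem_filter.1 hg).2)
  rw [Finset.sum_sub_distrib, e3, Finset.sum_const, nsmul_eq_mul] at e5
  have e6 := H32.mem_locMax_of_sub_mem (H32.mul_mem_locMax_right
    ((H32.natCast_mem_locMax_iff hM).2 e4) (H32.irr_mem_locRing χ 1)) e5
  rw [← H32.cast_charDegree_irr] at e6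
  exact hd ((H32.natCast_mem_locMax_iff hM).1 e6)

theorem Ctx0.psi (c : Ctx0 p G) : ∃ χ : IrrCharacter G, χ ≠ H33.oneIrr G ∧
    charDegree (χ : G → ℂ) = 2 ^ (Nat.card G).factorization 2 ∧
    ∀ g, 2 ∣ orderOf g → (χ : G → ℂ) g = 0 := by
  classical
  have := c.simple
  have hp := c.ord.prime
  have := Fact.mk hp
  have := Fintype.ofFinite G
  obtain ⟨x, hx⟩ := exists_prime_orderOf_dvd_card' p c.ord.dvd
  obtain ⟨M, hM⟩ := H86.exists_isPModular Nat.prime_three
  have := hM.2.1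
  obtain ⟨χ, h1, h3, h4⟩ : ∃ χ : IrrCharacter G, χ ≠ H33.oneIrr G ∧
      ¬ 3 ∣ charDegree (χ : G → ℂ) ∧ ¬ p ∣ charDegree (χ : G → ℂ) := by
    by_contra! h
    have h0 := H5.sum_degree_mul_irr x
    rw [if_neg (by rintro rfl; rw [orderOf_one] at hx; exact hp.one_lt.ne hx),
      ← Finset.add_sum_erase _ _ (Finset.mem_univ (H33.oneIrr G)), H33.oneIrr_apply,
      H33.oneIrr_apply, mul_one] at h0
    apply H32.one_not_mem_locMax (M := M)
    rw [eq_neg_of_add_eq_zero_left h0]
    refine neg_mem (sum_mem fun χ hχ => ?_)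
    by_cases h3 : 3 ∣ charDegree (χ : G → ℂ)
    · rw [← H32.cast_charDegree_irr]
      exact H32.mul_mem_locMax_right ((H32.natCast_mem_locMax_iff hM).2 h3)
        (H32.irr_mem_locRing χ _)
    obtain ⟨s, hs⟩ := H32.charDegree_dvd_card χ
    rw [H6.apply_eq_zero_of_defect_zero χ.2 hp (H32.cast_charDegree_irr χ).symm hs
      (fun hps => c.ord.not_sq (hs ▸ mul_dvd_mul (h χ (Finset.mem_erase.1 hχ).1 h3) hps))
      (x := x) hx.symm.dvd, mul_zero]
    exact zero_mem _
  obtain ⟨k, hk⟩ : ∃ k, charDegree (χ : G → ℂ) = 2 ^ k := by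
    obtain ⟨a, b, e⟩ := c.ord.2
    have hd := H32.charDegree_dvd_card χ
    rw [e, mul_assoc] at hd
    have h6 := Nat.Coprime.dvd_of_dvd_mul_left
      (Nat.Coprime.pow_right a ((Nat.Prime.coprime_iff_not_dvd Nat.prime_three).2 h3).symm)
      (Nat.Coprime.dvd_of_dvd_mul_left ((Nat.Prime.coprime_iff_not_dvd hp).2 h4).symm hd)
    obtain ⟨k, -, hk⟩ := (Nat.dvd_prime_pow Nat.prime_two).1 h6
    exact ⟨k, hk⟩
  obtain ⟨M2, hM2⟩ := H86.exists_isPModular Nat.prime_two
  have := hM2.2.1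
  have hna : ∃ a b : G, a * b ≠ b * a := by
    by_contra! h
    exact c.na ⟨⟨h⟩⟩
  have hB := H33.isPBlock_blockOf (M := M2) χ
  obtain ⟨D, hD⟩ := H34.exists_defectGroup hM2 hB
  have hDp := H34.IsDefectGroup.isPGroup hD
  have hD1 : D = ⊥ := by
    by_contra hne
    obtain ⟨b, ⟨hb, -, hi⟩, -⟩ := (S0920.result 2 M2 hM2 D hDp).2 _ hB hD
    have hc := (charPOf_iff _).1 (c.loc2 hDp hne)
    obtain ⟨ψ, hψ⟩ := H33.block_nonempty hb
    have hb0 : b = principalBlock M2 _ := H33.block_eq_of_mem hb H33.isPBlock_principalBlock hψ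
      (H33.mem_of_sameBlock H33.isPBlock_principalBlock H33.oneIrr_mem_principalBlock
        (S4487.result 2 M2 hM2 (H22.pPrimeCore_eq_bot_of_centralizer_pCore_le hc) hc _ _))
    have h5 := H33.inducedBlock_unique hi ((S0936.result 2 M2 hM2 _ b ⟨_, hi⟩).2 hb0)
    exact h1 (Subtype.ext (S0910.result 2 M2 hM2 hna χ (h5 ▸ H33.mem_blockOf_self χ) k (by
      rw [← H32.cast_charDegree_irr, hk]; simp)))
  have h5 := H34.factorization_degree_add_defect (p := 2) (H33.mem_blockOf_self (M := M2) χ)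
  rw [← H34.factorization_card_defectGroup hM2 hB hD, hD1, card_bot, Nat.factorization_one,
    Finsupp.zero_apply] at h5
  refine ⟨χ, h1, ?_, fun g hg => H34.apply_eq_zero_of_defect_zero hM2 χ (by omega) hg⟩
  have h6 := (Nat.factorization_le_iff_dvd (H34.irr_degree_ne_zero χ) Nat.card_pos.ne').2
    (H32.charDegree_dvd_card χ) 2
  rw [← show (charDegree (χ : G → ℂ)).factorization 2 = (Nat.card G).factorization 2 by omega,
    hk, Nat.Prime.factorization_pow Nat.prime_two, Finsupp.single_eq_same]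

theorem Ord.order_eq (h : Ord p G) [IsSimpleGroup G] {g : G} (hg : p ∣ orderOf g) :
    orderOf g = p := by
  have h1 : orderOf (g ^ (orderOf g / p)) = p := orderOf_pow_orderOf_div (orderOf_pos g).ne' hg
  have h2 := orderOf_dvd_of_mem_zpowers (h.sc h1 (Commute.self_pow g _))
  rw [h1] at h2
  exact Nat.dvd_antisymm h2 hg

theorem Ctx0.ctx (c : Ctx0 p G) : Ctx p G := by
  have := c.simple
  have hp := c.ord.prime
  have h7 := c.ord.seven_le
  have : Fact (Nat.Prime 3) := ⟨Nat.prime_three⟩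
  have h3 : 3 ∣ Nat.card G := by
    obtain ⟨a, b, e⟩ := c.ord.2
    rcases Nat.eq_zero_or_pos a with rfl | ha
    · have := S0144.result p 2 1 b hp Nat.prime_two (G := G) (by rw [e]; ring)
      exact (c.na ⟨⟨IsSimpleGroup.comm_iff_isSolvable.2 this⟩⟩).elim
    · exact e ▸ ((dvd_pow_self 3 ha.ne').mul_left p).mul_right _
  obtain ⟨χ, h1, hd, h0⟩ := c.psi
  obtain ⟨M, hM⟩ := H86.exists_isPModular Nat.prime_three
  have := hM.2.1
  have hd3 : ¬ 3 ∣ charDegree (χ : G → ℂ) := fun h => by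
    have := Nat.prime_three.dvd_of_dvd_pow (hd ▸ h)
    omega
  have hB := mem_B0 hM h3 hd3 h1 fun g hg hn => by
    by_contra hne
    refine hn ⟨_, Nat.eq_prime_pow_of_unique_prime_dvd (orderOf_pos g).ne' fun {r} hr hd => ?_⟩
    rcases c.ord.prime_dvd hr (hd.trans (orderOf_dvd_natCard g)) with e | e | e
    · rw [c.ord.order_eq (e ▸ hd)] at hg
      have := (Nat.prime_dvd_prime_iff_eq Nat.prime_three hp).1 hg
      omega
    · exact e
    · exact (hne (h0 g (e ▸ hd))).elim
  obtain ⟨S⟩ : Nonempty (Sylow 3 G) := inferInstance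
  refine ⟨c, (S2896.result h3 S ⊥ bot_le).2.2 fun z _ hz => ?_⟩
  rw [← H71.charPIn_iff_gfitting, H72.charPIn_iff]
  have hz1 : z ≠ 1 := by rintro rfl; simp at hz
  have hC := c.ord.not_dvd_C1 hz1 (by rw [hz]; intro h; have := Nat.le_of_dvd (by norm_num) h; omega)
  have hs := c.ord.solv hC
  refine H22.IsPSolvable.centralizer_pCore_le (H22.isPSolvable_of_isSolvable (p := 3))
    (eq_bot_iff.2 fun v hv => ?_)
  have e1 := S0942.result 3 M hM z ⟨1, by simpa using hz⟩ v ⟨v, hv, rfl⟩ χ hB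
  have e2 : (χ : G → ℂ) (z * v) ≠ 0 := by
    rw [e1]
    intro e
    have := H33.char_mul_sub_mem hM (H5.isCharacter_of_isIrr χ.2) (Commute.one_right z)
      ⟨1, by simpa using hz⟩
    rw [mul_one, e, zero_sub, neg_mem_iff, ← H32.cast_charDegree_irr] at this
    exact hd3 ((H32.natCast_mem_locMax_iff hM).1 this)
  have e3 : ¬ 3 ∣ orderOf v := fun h => (Nat.Prime.coprime_iff_not_dvd Nat.prime_three).1
    H22.coprime_card_pPrimeCore.symm (h.trans (orderOf_dvd_natCard _ hv))
  rw [mem_bot, ← orderOf_eq_one_iff]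
  by_contra hne
  obtain ⟨r, hr, hrd⟩ := Nat.exists_prime_and_dvd hne
  rcases c.ord.prime_dvd hr ((hrd.trans (_root_.orderOf_dvd_natCard v)).trans
    (card_subgroup_dvd_card _)) with e | e | e
  · exact hC ((e ▸ hrd).trans (_root_.orderOf_dvd_natCard v))
  · exact e3 (e ▸ hrd)
  · refine e2 (h0 _ ?_)
    have hc : Commute z v := (mem_centralizer_singleton_iff.1 v.2).symm
    have e4 : (z * v) ^ 3 = (v : G) ^ 3 := by rw [hc.mul_pow, ← hz, pow_orderOf_eq_one, one_mul]
    refine dvd_trans ?_ (orderOf_pow_dvd 3)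
    rw [e4, Nat.Coprime.orderOf_pow (by
      rw [orderOf_coe]
      exact ((Nat.Prime.coprime_iff_not_dvd Nat.prime_three).2 e3).symm), orderOf_coe]
    exact e ▸ hrd

theorem not128 (c : Ctx0 7 G) {T : Subgroup G} (hT : SylOf 2 T ⊤) (h : Nat.card T = 128)
    {x y : G} (hx : orderOf x = 7) (hy : orderOf y = 3) (hxy : y * x * y⁻¹ = x ^ 2) : False := by
  have := c.simple
  have : Fact (Nat.Prime 7) := ⟨by norm_num⟩
  obtain ⟨χ, h1, hd, h0⟩ := c.psi
  obtain ⟨S, rfl⟩ := hT.exists_sylow_top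
  rw [← S.card_eq_multiplicity, h] at hd
  obtain ⟨M, hM⟩ := H86.exists_isPModular (p := 7) (by norm_num)
  have hB := mem_B0 hM c.ord.dvd (by rw [hd]; norm_num) h1 fun g hg hn =>
    (hn ⟨1, by simpa using c.ord.order_eq hg⟩).elim
  have hz : IsPGroup 7 (zpowers x) := IsPGroup.of_card (n := 1) (by simp [hx])
  obtain ⟨P, hP⟩ := hz.exists_le_sylow
  have hcard : Nat.card (P : Subgroup G) = 7 := by
    obtain ⟨k, hk⟩ := P.isPGroup'.exists_card_eq
    have h2 : 7 ∣ 7 ^ k := by
      have := card_dvd_of_le hP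
      rwa [Nat.card_zpowers, hx, hk] at this
    have h3 : ¬ 7 ^ 2 ∣ 7 ^ k := fun e =>
      c.ord.not_sq (by rw [← pow_two]; exact e.trans (hk ▸ card_subgroup_dvd_card _))
    rw [Nat.pow_dvd_pow_iff_le_right (by norm_num)] at h3
    have : k ≠ 0 := by rintro rfl; simp at h2
    rw [hk, show k = 1 by omega, pow_one]
  have hPx : zpowers x = P := eq_of_le_of_card_ge hP (by rw [hcard, Nat.card_zpowers, hx])
  have h2 := (S0960.result 7 M hM (by norm_num) P hcard _ rfl).2 χ hB
  set e := (centralizer ((P : Subgroup G) : Set G)).relIndex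
    (normalizer ((P : Subgroup G) : Set G)) with he
  have h6 : e ∣ 6 := by
    have h3 := card_subgroup_dvd_card (normalizerMonoidHom (P : Subgroup G)).range
    have hcy : IsCyclic (P : Subgroup G) := isCyclic_of_prime_card hcard
    rw [← index_ker, normalizerMonoidHom_ker, IsCyclic.card_mulAut, hcard] at h3
    exact h3
  have h3 : 3 ∣ e := by
    have hyN : y ∈ normalizer ((P : Subgroup G) : Set G) := by
      rw [← hPx]
      refine mem_normalizer_fintype ?_
      rintro _ ⟨k, rfl⟩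
      rw [← conj_zpow, hxy]
      exact zpow_mem (pow_mem (mem_zpowers x) 2) k
    by_contra h4
    have h5 : (⟨y, hyN⟩ : normalizer ((P : Subgroup G) : Set G)) ^ e ∈
        (centralizer ((P : Subgroup G) : Set G)).subgroupOf _ := by
      rw [he, relIndex, ← normalizerMonoidHom_ker]
      exact pow_index_mem _ _
    have h7 : y ^ e = 1 := c.ord.fpf hx
      ((mem_centralizer_iff.1 h5 x (hP (mem_zpowers x))).symm) fun h8 => by
        have := (h8.trans (orderOf_pow_dvd e)).trans hy.dvd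
        omega
    exact h4 (hy ▸ orderOf_dvd_of_pow_eq_one h7)
  have h8 : e = 3 ∨ e = 6 := by
    have := Nat.le_of_dvd (by norm_num) h6
    have := Nat.pos_of_dvd_of_pos h6 (by norm_num)
    omega
  rw [hd] at h2
  rcases h8 with h8 | h8 <;> rw [h8] at h2 <;> revert h2 <;> decide

end Cfsg.Agent.PTT
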