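import Cfsg.Agent.PTT.Defs
import Cfsg.Agent.H3.Transfer2
import Cfsg.Agent.H3.PGroup
import Cfsg.Agent.H23.Basic

/-! Counting lemmas. -/

set_option autoImplicit false
set_option linter.unusedSectionVars false

namespace Cfsg.Agent.PTT

open Subgroup H69 H59

variable {G : Type*} [Group G] [Finite G] {p : ℕ}

omit [Finite G] in
theorem cen_zp (x : G) : centralizer ((zpowers x : Subgroup G) : Set G) = C1 x := by
  rw [Subgroup.zpowers_eq_closure, Subgroup.centralizer_closure]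

omit [Finite G] in
theorem mem_C1' {x g : G} : g ∈ C1 x ↔ g * x = x * g := mem_centralizer_singleton_iff

theorem card_mod_C1 {r : ℕ} (hr : r.Prime) {x : G} (hx : x ^ r = 1) {U : Subgroup G}
    (hn : x ∈ normalizer (U : Set G)) : Nat.card U ≡ Nat.card ↥(U ⊓ C1 x) [MOD r] := by
  have := Fact.mk hr
  rw [← cen_zp]
  refine H3.card_modEq_card_inf_centralizer ?_ (zpowers_le.mpr hn)
  refine isPGroup_iff_mem.mpr fun y hy => ⟨1, ?_⟩
  obtain ⟨k, rfl⟩ := hy
  rw [pow_one, ← zpow_natCast, ← zpow_mul, mul_comm, zpow_mul, zpow_natCast, hx, one_zpow]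

theorem card_mod_nine {h : G} (hh : orderOf h = 9) {U : Subgroup G}
    (hn : h ∈ normalizer (U : Set G)) : Nat.card U ≡ Nat.card ↥(U ⊓ C1 (h ^ 3)) [MOD 9] := by
  classical
  let X := {u : G // u ∈ U ∧ u ∉ C1 (h ^ 3)}
  have hc : ∀ g : zpowers h, (g : G) * h ^ 3 = h ^ 3 * g := by
    rintro ⟨_, k, rfl⟩
    exact ((Commute.refl h).zpow_left k).pow_right 3
  have key : ∀ (g : zpowers h) (u : G), u ∈ C1 (h ^ 3) → (g : G) * u * (g : G)⁻¹ ∈ C1 (h ^ 3) :=
    fun g u hu => mul_mem (mul_mem (mem_C1'.mpr (hc g)) hu) (inv_mem (mem_C1'.mpr (hc g)))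
  letI : MulAction (zpowers h) X :=
    { smul := fun g u => ⟨g * u * (g : G)⁻¹,
        conj_mem_of_mem_normalizer (zpowers_le.mpr hn g.2) u.2.1, fun k => u.2.2 (by
          have := key g⁻¹ _ k
          simpa [mul_assoc] using this)⟩
      one_smul := fun u => Subtype.ext (by change (1 : G) * u * 1⁻¹ = u; simp)
      mul_smul := fun a b u => Subtype.ext (by
        change (a : G) * b * u * ((a : G) * b)⁻¹ = a * (b * u * (b : G)⁻¹) * (a : G)⁻¹
        group) }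
  have hf : ∀ u : X, MulAction.stabilizer (zpowers h) u = ⊥ := fun u => by
    refine eq_bot_iff.mpr fun g hg => ?_
    have e : (g : G) * u * (g : G)⁻¹ = u := congrArg Subtype.val hg
    by_contra hne
    have h1 : (g : G) ∈ C1 (u : G) := mem_C1'.mpr (mul_inv_eq_iff_eq_mul.mp e)
    obtain ⟨k, hk, e'⟩ : ∃ k < 9, h ^ k = g := by
      obtain ⟨k, hk⟩ := (mem_powers_iff_mem_zpowers.mpr g.2)
      exact ⟨k % 9, Nat.mod_lt _ (by norm_num), by rw [← hh, pow_mod_orderOf]; exact hk⟩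
    have h9 : h ^ 9 = 1 := hh ▸ pow_orderOf_eq_one h
    have hm : ∀ m, h ^ (k * m % 9) ∈ C1 (u : G) := fun m => by
      rw [← hh, pow_mod_orderOf, pow_mul, e']; exact pow_mem h1 m
    apply u.2.2
    rw [mem_C1', eq_comm, ← mem_C1']
    interval_cases k
    · exact absurd (Subtype.ext (by simpa using e'.symm)) hne
    exacts [hm 3, hm 6, hm 1, hm 3, hm 6, hm 2, hm 3, hm 6]
  have h1 : 9 ∣ Nat.card X := by
    rw [Nat.card_congr (MulAction.selfEquivOrbitsQuotientProd hf), Nat.card_prod,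
      Nat.card_zpowers, hh]
    exact Dvd.intro_left _ rfl
  have h2 : Nat.card U = Nat.card ↥(U ⊓ C1 (h ^ 3)) + Nat.card X := by
    rw [← Nat.card_sum]
    refine Nat.card_congr ((Equiv.sumCompl fun u : U => (u : G) ∈ C1 (h ^ 3)).symm.trans
      (Equiv.sumCongr ⟨fun u => ⟨u.1.1, u.1.2, u.2⟩, fun u => ⟨⟨u.1, u.2.1⟩, u.2.2⟩,
        fun _ => rfl, fun _ => rfl⟩
        ⟨fun u => ⟨u.1.1, u.1.2, u.2⟩, fun u => ⟨⟨u.1, u.2.1⟩, u.2.2⟩, fun _ => rfl, fun _ => rfl⟩))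
  rw [h2]
  obtain ⟨c, hc⟩ := h1
  rw [hc, Nat.ModEq]; omega

theorem Ord.card_mod (h : Ord p G) [IsSimpleGroup G] {x : G} (hx : orderOf x = p) {U : Subgroup G}
    (hU : IsPGroup 2 U) (hn : x ∈ normalizer (U : Set G)) : Nat.card U % p = 1 := by
  have h1 := card_mod_C1 h.prime (hx ▸ pow_orderOf_eq_one x) hn
  have h2 : U ⊓ C1 x = ⊥ := eq_bot_iff.mpr fun u hu => by
    refine h.fpf hx (mem_C1'.mp hu.2) fun hd => ?_
    obtain ⟨k, hk⟩ := isPGroup_iff_mem.mp hU u hu.1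
    have := Nat.le_of_dvd (by norm_num)
      (h.prime.dvd_of_dvd_pow (hd.trans (orderOf_dvd_of_pow_eq_one hk)))
    have := h.seven_le
    omega
  rw [h2, card_bot] at h1
  rw [h1, Nat.mod_eq_of_lt h.prime.one_lt]

theorem exists_fix_mod {R N M : Subgroup G} (hR : IsPGroup 2 R) (hN : IsPGroup 2 N) (hMN : M < N)
    (h1 : R ≤ normalizer (N : Set G)) (h2 : R ≤ normalizer (M : Set G))
    (h3 : N ≤ normalizer (M : Set G)) :
    ∃ u ∈ N, u ∉ M ∧ ∀ r ∈ R, r * u * r⁻¹ * u⁻¹ ∈ M := by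
  have k1 : (M.subgroupOf (R ⊔ N)).Normal :=
    (normal_subgroupOf_iff_le_normalizer (hMN.le.trans le_sup_right)).mpr (sup_le h2 h3)
  have k2 : (N.subgroupOf (R ⊔ N)).Normal :=
    (normal_subgroupOf_iff_le_normalizer le_sup_right).mpr (sup_le h1 le_normalizer)
  obtain ⟨x, hx, hx', -, k3⟩ := H3.exists_mem_central_mod (isPGroup_sup_of_le_normalizer hR hN h1)
    (M.subgroupOf (R ⊔ N)) (N.subgroupOf (R ⊔ N)) fun h' => hMN.not_ge fun v hv =>
      h' (show (⟨v, mem_sup_right hv⟩ : (R ⊔ N : Subgroup G)) ∈ N.subgroupOf _ from hv)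
  refine ⟨x, hx, hx', fun r hr => ?_⟩
  have := inv_mem (k3 ⟨r, mem_sup_left hr⟩)
  rw [commutatorElement_inv] at this
  exact this

theorem exists_norm_not_mem {T U : Subgroup G} (hU : IsPGroup 2 U) (h : T < U) :
    ∃ u ∈ U, u ∈ normalizer (T : Set G) ∧ u ∉ T := H23.exists_mem_normalizer_not_mem hU h

theorem sylOf_top_of {T : Subgroup G} (hT : IsPGroup 2 T)
    (h : ∀ U : Subgroup G, IsPGroup 2 U → T ≤ U → U ≤ normalizer (T : Set G) → U = T) :
    SylOf 2 T ⊤ := by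
  refine ⟨le_top, hT, fun U hU h1 _ => ?_⟩
  by_contra hne
  obtain ⟨u, hu, hn, hu'⟩ := exists_norm_not_mem hU (lt_of_le_of_ne h1 (Ne.symm hne))
  have := h (U ⊓ normalizer (T : Set G)) hU.to_inf_left (le_inf h1 le_normalizer) inf_le_right
  exact hu' (this ▸ ⟨hu, hn⟩)

theorem Thin.nine (t : Thin G) {T H : Subgroup G} (hT : IsPGroup 2 T) (h1 : T ≠ ⊥)
    (hH : H ≤ normalizer (T : Set G)) (h9 : 9 ∣ Nat.card H) {y : G} (hy : y ∈ H)
    (h3 : orderOf y = 3) : ∃ h ∈ H, orderOf h = 9 ∧ h ^ 3 = y := by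
  have : Fact (Nat.Prime 3) := ⟨Nat.prime_three⟩
  have hy' : orderOf (⟨y, hy⟩ : H) = 3 := (orderOf_coe (⟨y, hy⟩ : H)).symm.trans h3
  obtain ⟨K, hK, hle⟩ := Sylow.exists_subgroup_card_pow_succ (p := 3) (n := 1) h9
    (H := zpowers (⟨y, hy⟩ : H)) (by rw [Nat.card_zpowers, hy', pow_one])
  have hc : IsMulCommutative K := IsPGroup.isMulCommutative_of_card_eq_prime_sq (p := 3) hK
  obtain ⟨k, hk, hk3⟩ : ∃ k ∈ K, k ^ 3 ≠ 1 := by
    by_contra! h
    have := t.loc T (K.map H.subtype) hT h1 ⟨inferInstance, by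
      rintro _ ⟨a, ha, rfl⟩
      exact congrArg Subtype.val (h a ha)⟩ ((map_subtype_le K).trans hH)
    rw [card_map_of_injective H.subtype_injective, hK] at this
    omega
  have ho : orderOf k = 9 := by
    have h2 : orderOf k ∣ 3 ^ 2 := hK ▸ (orderOf_coe (⟨k, hk⟩ : K)).symm ▸ orderOf_dvd_natCard _
    obtain ⟨i, hi, e⟩ := (Nat.dvd_prime_pow Nat.prime_three).mp h2
    interval_cases i
    · exact absurd (orderOf_dvd_iff_pow_eq_one.mp (by rw [e]; norm_num)) hk3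
    · exact absurd (orderOf_dvd_iff_pow_eq_one.mp (by rw [e]; norm_num)) hk3
    · exact e
  have hz : zpowers k = K := eq_of_le_of_card_ge (zpowers_le.mpr hk)
    (by rw [Nat.card_zpowers, ho, hK]; norm_num)
  obtain ⟨m, hm⟩ := mem_powers_iff_mem_zpowers.mpr (hz ▸ hle (mem_zpowers _))
  have e : k ^ (m % 9) = ⟨y, hy⟩ := by rw [← ho, pow_mod_orderOf]; exact hm
  have e3 : 9 / Nat.gcd 9 (m % 9) = 3 := by rw [← hy', ← e, orderOf_pow, ho]
  have hlt := Nat.mod_lt m (show 0 < 9 by norm_num)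
  generalize m % 9 = j at e e3 hlt
  have : j = 3 ∨ j = 6 := by interval_cases j <;> simp_all
  rcases this with rfl | rfl
  · exact ⟨k, k.2, (orderOf_coe k).trans ho, congrArg Subtype.val e⟩
  · refine ⟨(k ^ 2 : H), (k ^ 2).2, (orderOf_coe _).trans ?_, ?_⟩
    · rw [orderOf_pow, ho]; rfl
    · rw [Subgroup.coe_pow, ← pow_mul]; exact congrArg Subtype.val e

theorem Thin.irr (t : Thin G) {V U : Subgroup G} (hV : IsElementaryAbelian 2 V)
    (h8 : Nat.card V = 8) {y z : G} (hy : orderOf y = 3) (hz : z ≠ 1) (hyz : y ∈ C1 z)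
    (hU : U ≤ V) (hzU : z ∈ U) (hn : y ∈ normalizer (U : Set G)) : U = zpowers z ∨ U = V := by
  have hz2 : orderOf z = 2 := orderOf_eq_prime (hV.2 z (hU hzU)) hz
  have h1 := card_mod_C1 Nat.prime_three (hy ▸ pow_orderOf_eq_one y) hn
  have h2 := t.cen y (U ⊓ C1 y) hy (isElementaryAbelian_of_le hV (inf_le_left.trans hU))
    inf_le_right
  have h3 : 2 ∣ Nat.card ↥(U ⊓ C1 y) := by
    rw [← hz2, ← Nat.card_zpowers]
    exact card_dvd_of_le (zpowers_le.mpr ⟨hzU, mem_C1'.mpr (mem_C1'.mp hyz).symm⟩)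
  have h4 : 0 < Nat.card ↥(U ⊓ C1 y) := Nat.card_pos
  have h5 : Nat.card U ∣ 2 ^ 3 := (show Nat.card V = 2 ^ 3 from h8) ▸ card_dvd_of_le hU
  obtain ⟨i, hi, e⟩ := (Nat.dvd_prime_pow Nat.prime_two).mp h5
  rw [show Nat.card ↥(U ⊓ C1 y) = 2 by omega, e, Nat.ModEq] at h1
  interval_cases i
  · omega
  · exact .inl (eq_of_le_of_card_ge (zpowers_le.mpr hzU) (by rw [Nat.card_zpowers, hz2, e]; norm_num)).symm
  · omega
  · exact .inr (eq_of_le_of_card_ge hU (by rw [h8, e]; norm_num))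

theorem mem_zpowers_two {z g : G} (hz : z ^ 2 = 1) : g ∈ zpowers z ↔ g = 1 ∨ g = z := by
  refine ⟨?_, by rintro (rfl | rfl); exacts [one_mem _, mem_zpowers _]⟩
  rintro ⟨k, rfl⟩
  have h2 : z ^ (2 : ℤ) = 1 := by exact_mod_cast hz
  rcases Int.even_or_odd' k with ⟨m, rfl | rfl⟩
  · left; simp only; rw [zpow_mul, h2, one_zpow]
  · right; simp only; rw [zpow_add, zpow_mul, h2, one_zpow, one_mul, zpow_one]

theorem card_le_sq {V : Subgroup G} (hV : IsElementaryAbelian 2 V) {t : G}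
    (hn : t ∈ normalizer (V : Set G)) (h2 : t ^ 2 ∈ centralizer (V : Set G)) :
    Nat.card V ≤ Nat.card ↥(V ⊓ C1 t) ^ 2 := by
  have hc := (isElementaryAbelian_iff.mp hV).1
  have hi : ∀ v ∈ V, v⁻¹ = v := fun v hv => inv_eq_of_mul_eq_one_right (by
    rw [← pow_two]; exact hV.2 v hv)
  let f : V →* V :=
    { toFun := fun v => ⟨t * v * t⁻¹ * v, mul_mem (conj_mem_of_mem_normalizer hn v.2) v.2⟩
      map_one' := Subtype.ext (by simp)
      map_mul' := fun a b => Subtype.ext (by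
        have := hc _ (conj_mem_of_mem_normalizer hn b.2) _ a.2
        change t * (a * b) * t⁻¹ * (a * b) = t * a * t⁻¹ * a * (t * b * t⁻¹ * b)
        calc t * (a * b) * t⁻¹ * (a * b) = t * a * t⁻¹ * (t * b * t⁻¹ * a) * b := by group
          _ = _ := by rw [this]; group) }
  have k1 : f.ker ≤ (C1 t).subgroupOf V := fun v hv => by
    have e : t * v * t⁻¹ * v = 1 := congrArg Subtype.val hv
    rw [mul_eq_one_iff_eq_inv, hi _ v.2, mul_inv_eq_iff_eq_mul] at e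
    exact mem_C1'.mpr e.symm
  have k2 : f.range ≤ (C1 t).subgroupOf V := by
    rintro _ ⟨v, rfl⟩
    refine mem_C1'.mpr ?_
    change t * v * t⁻¹ * v * t = t * (t * v * t⁻¹ * v)
    have e1 : (v : G) * t ^ 2 = t ^ 2 * v := h2 v v.2
    have e2 := hc _ (conj_mem_of_mem_normalizer hn v.2) _ v.2
    calc t * v * t⁻¹ * v * t = v * (t * v * t⁻¹) * t := by rw [e2]
      _ = v * t ^ 2 * t⁻¹ * v := by group
      _ = _ := by rw [e1]; simp only [pow_two, mul_assoc]
  have k3 : Nat.card ((C1 t).subgroupOf V) = Nat.card ↥(V ⊓ C1 t) := by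
    rw [← inf_subgroupOf_left, card_subgroupOf_of_le inf_le_left]
  rw [← f.ker.card_mul_index, index_ker, pow_two, ← k3]
  exact Nat.mul_le_mul (card_le_of_le k1) (card_le_of_le k2)

theorem normalizer_zpowers_eq {z : G} (hz : orderOf z = 2) :
    normalizer ((zpowers z : Subgroup G) : Set G) = C1 z := by
  refine le_antisymm (fun g hg => ?_) (by rw [← cen_zp]; exact centralizer_le_normalizer _)
  rcases (mem_zpowers_two (hz ▸ pow_orderOf_eq_one z)).mp
    (conj_mem_of_mem_normalizer hg (mem_zpowers z)) with h | h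
  · rw [conj_eq_one_iff] at h
    rw [h, orderOf_one] at hz; omega
  · exact mem_C1'.mpr (mul_inv_eq_iff_eq_mul.mp h)

theorem mem_O2_C1 {z : G} (hz : orderOf z = 2) : z ∈ O2 (C1 z) :=
  le_pCoreOf (zpowers_le.mpr (mem_C1'.mpr rfl)) (normalizer_zpowers_eq hz).ge
    (isPGroup_zpowers_of_orderOf (k := 1) hz) (mem_zpowers z)

theorem Ctx0.charP_C1 (c : Ctx0 p G) {z : G} (hz : orderOf z = 2) : CharPOf 2 (C1 z) := by
  rw [← normalizer_zpowers_eq hz]
  refine c.loc2 (isPGroup_zpowers_of_orderOf (k := 1) hz) fun h => ?_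
  rw [zpowers_eq_bot.mp h, orderOf_one] at hz; omega

end Cfsg.Agent.PTT
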