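import Cfsg.Agent.NG.Defs
import Cfsg.Agent.H69.Cores
import Cfsg.Agent.H59.PTerm
import Cfsg.Agent.S1001
import Cfsg.Agent.S0144
import Cfsg.Prelude.Def_LocalEven

/-! Simple groups of order `p * 3 ^ a * 2 ^ b`, `p ∈ {7, 13, 17}`: definitions. -/

set_option autoImplicit false
set_option linter.unusedSectionVars false

namespace Cfsg.Agent.PTT

open Subgroup H69 H59

universe u

/-- the order hypothesis -/
def Ord (p : ℕ) (G : Type*) [Group G] : Prop :=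
  (p = 7 ∨ p = 13 ∨ p = 17) ∧ ∃ a b : ℕ, Nat.card G = p * 3 ^ a * 2 ^ b

/-- `PSL(2, q)` -/
def IsoL2q (q : ℕ) (G : Type*) [Group G] : Prop :=
  ∃ (F : Type) (_ : Field F) (_ : Fintype F), Fintype.card F = q ∧
    Nonempty (G ≃* Matrix.ProjectiveSpecialLinearGroup (Fin 2) F)

/-- the target list -/
def Tgt (G : Type*) [Group G] : Prop :=
  IsoL2q 7 G ∨ IsoL2q 8 G ∨ IsoL2q 17 G ∨ NG.IsoU33 G ∨ NG.IsoL33 G

/-- the induction hypothesis -/
def IH (p : ℕ) (G : Type u) [Group G] : Prop :=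
  ∀ (L : Type u) [Group L] [Finite L], IsSimpleGroup L → ¬ IsMulCommutative L → Ord p L →
    Nat.card L < Nat.card G → Tgt L

/-- simple, of the given order, of characteristic 2 type and 2-rank at least 3 -/
structure Ctx0 (p : ℕ) (G : Type*) [Group G] : Prop where
  ord : Ord p G
  simple : IsSimpleGroup G
  na : ¬ IsMulCommutative G
  ch2 : IsCharacteristicTwoType G
  rk3 : PRankAtLeast 2 3 G

/-- moreover of characteristic 3 type -/
structure Ctx (p : ℕ) (G : Type*) [Group G] : Prop extends Ctx0 p G where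
  ch3 : IsOfLocalCharacteristic 3 G

/-- no `3 × 3` in a 2-local subgroup, no four-group in the centraliser of an element of order 3 -/
structure Thin (G : Type*) [Group G] : Prop where
  loc : ∀ T E : Subgroup G, IsPGroup 2 T → T ≠ ⊥ → IsElementaryAbelian 3 E →
    E ≤ normalizer (T : Set G) → Nat.card E ≤ 3
  cen : ∀ (y : G) (W : Subgroup G), orderOf y = 3 → IsElementaryAbelian 2 W → W ≤ C1 y →
    Nat.card W ≤ 2

variable {G : Type*} [Group G]

/-- `O₂(H)` inside the ambient group -/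
abbrev O2 (H : Subgroup G) : Subgroup G := pCoreOf 2 H

/-- `Ω₁ Z(T)` inside the ambient group -/
abbrev OZ (T : Subgroup G) : Subgroup G := omegaOne 2 (zOf T)

/-- `Q` is an extraspecial 2-group with centre `⟨z⟩`, elementwise -/
structure ES (z : G) (Q : Subgroup G) : Prop where
  ord : orderOf z = 2
  mem : z ∈ Q
  le : Q ≤ C1 z
  sq : ∀ x ∈ Q, x ^ 2 = 1 ∨ x ^ 2 = z
  comm : ∀ x ∈ Q, ∀ y ∈ Q, x * y = y * x ∨ x * y = z * (y * x)
  cen : ∀ x ∈ Q, (∀ y ∈ Q, x * y = y * x) → x = 1 ∨ x = z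
  nab : ∃ x ∈ Q, ∃ y ∈ Q, x * y ≠ y * x

/-- what a solvable 2-local subgroup looks like -/
structure Sol (p : ℕ) (H : Subgroup G) : Prop where
  solv : Group.IsSolvable H
  two : p = 7 → ∀ T ≤ H, IsPGroup 2 T → Nat.card T ≤ 2 * Nat.card (O2 H)
  nrm : ∀ x ∈ H, orderOf x = p → ∀ h ∈ H, ∃ k : ℕ, ∃ o ∈ O2 H, h * x * h⁻¹ = x ^ k * o
  inv : ∀ x ∈ H, orderOf x = p → ∀ T ≤ H, IsPGroup 2 T → x ∈ normalizer (T : Set G) → T ≤ O2 H

/-- `V ≅ 2³` with `N(V) / C(V) ≅ L₃(2)` -/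
structure L3 (V : Subgroup G) : Prop where
  ea : IsElementaryAbelian 2 V
  card : Nat.card V = 8
  frob : ∃ x ∈ normalizer (V : Set G), ∃ y ∈ normalizer (V : Set G),
    orderOf x = 7 ∧ orderOf y = 3 ∧ y * x * y⁻¹ = x ^ 2
  syl : ∃ T ≤ normalizer (V : Set G), IsPGroup 2 T ∧ centralizer (V : Set G) ≤ T ∧
    Nat.card T = 8 * Nat.card (centralizer (V : Set G))
  simp : ∀ K ≤ normalizer (V : Set G), normalizer (V : Set G) ≤ normalizer (K : Set G) →
    K ≤ centralizer (V : Set G) ∨ ∃ x ∈ K, orderOf x = 7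

/-- `H / O₂(H) ≅ L₃(2)` -/
structure T3 (H : Subgroup G) : Prop where
  l3 : L3 (OZ (O2 H))
  card : Nat.card H = 168 * Nat.card (O2 H)

/-- `H / O₂(H)` has socle `L₂(8)` -/
structure T8 (H : Subgroup G) : Prop where
  ea : IsElementaryAbelian 2 (O2 H)
  big : 64 ≤ Nat.card (O2 H)
  inv : ∀ a ∈ H, a ^ 2 = 1 → a ∉ O2 H →
    Nat.card ↥(O2 H ⊓ C1 a) ^ 2 ≤ Nat.card (O2 H)
  syl : ∀ T, SylOf 2 T H → Nat.card T = 8 * Nat.card (O2 H) ∧
    ∃ x ∈ H, orderOf x = 7 ∧ x ∈ normalizer (T : Set G)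

/-- `L` is the simple socle of `H / O₂(H)` -/
structure NS (H : Subgroup G) (L : Subgroup (H ⧸ pCore 2 H)) : Prop where
  normal : L.Normal
  simple : IsSimpleGroup L
  na : ¬ IsMulCommutative L
  cen : centralizer (L : Set (H ⧸ pCore 2 H)) = ⊥

/-- the classification of the 2-local subgroups in the thin case -/
def Loc (p : ℕ) (G : Type*) [Group G] : Prop :=
  ∀ H : Subgroup G, O2 H ≠ ⊥ → CharPOf 2 H → Sol p H ∨ (p = 7 ∧ (T3 H ∨ T8 H))

/-- the elements acting trivially on `V / ⟨z⟩` -/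
def R1 (V : Subgroup G) (z : G) : Subgroup G where
  carrier := {g | g ∈ normalizer (V : Set G) ∧ g ∈ C1 z ∧ ∀ v ∈ V, g * v * g⁻¹ * v⁻¹ ∈ zpowers z}
  one_mem' := ⟨one_mem _, one_mem _, fun v _ => by simp⟩
  mul_mem' := fun {a b} ha hb => ⟨mul_mem ha.1 hb.1, mul_mem ha.2.1 hb.2.1, fun v hv => by
    have := mul_mem (ha.2.2 _ (conj_mem_of_mem_normalizer hb.1 hv)) (hb.2.2 v hv)
    rwa [show a * (b * v * b⁻¹) * a⁻¹ * (b * v * b⁻¹)⁻¹ * (b * v * b⁻¹ * v⁻¹) =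
      a * b * v * (a * b)⁻¹ * v⁻¹ by group] at this⟩
  inv_mem' := fun {a} ha => ⟨inv_mem ha.1, inv_mem ha.2.1, fun v hv => by
    have := inv_mem (ha.2.2 _ (conj_mem_of_mem_normalizer (inv_mem ha.1) hv))
    rwa [show (a * (a⁻¹ * v * a⁻¹⁻¹) * a⁻¹ * (a⁻¹ * v * a⁻¹⁻¹)⁻¹)⁻¹ =
      a⁻¹ * v * a⁻¹⁻¹ * v⁻¹ by group] at this⟩

theorem mem_R1 {V : Subgroup G} {z g : G} : g ∈ R1 V z ↔ g ∈ normalizer (V : Set G) ∧ g ∈ C1 z ∧
    ∀ v ∈ V, g * v * g⁻¹ * v⁻¹ ∈ zpowers z := Iff.rfl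

variable [Finite G] {p : ℕ}

theorem Ord.prime (h : Ord p G) : p.Prime := by
  rcases h.1 with rfl | rfl | rfl <;> norm_num

theorem Ord.seven_le (h : Ord p G) : 7 ≤ p := by
  rcases h.1 with rfl | rfl | rfl <;> norm_num

theorem Ord.prime_dvd (h : Ord p G) {r : ℕ} (hr : r.Prime) (hd : r ∣ Nat.card G) :
    r = p ∨ r = 3 ∨ r = 2 := by
  obtain ⟨a, b, e⟩ := h.2
  rw [e] at hd
  rcases (Nat.Prime.dvd_mul hr).mp hd with h1 | h1
  · rcases (Nat.Prime.dvd_mul hr).mp h1 with h2 | h2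
    · exact .inl ((Nat.prime_dvd_prime_iff_eq hr h.prime).mp h2)
    · exact .inr (.inl ((Nat.prime_dvd_prime_iff_eq hr Nat.prime_three).mp (hr.dvd_of_dvd_pow h2)))
  · exact .inr (.inr ((Nat.prime_dvd_prime_iff_eq hr Nat.prime_two).mp (hr.dvd_of_dvd_pow h1)))

theorem Ord.not_five (h : Ord p G) : ¬ 5 ∣ Nat.card G := fun hd => by
  have := h.seven_le
  rcases h.prime_dvd (by norm_num) hd with h1 | h1 | h1 <;> omega

theorem Ord.dvd (h : Ord p G) : p ∣ Nat.card G := by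
  obtain ⟨a, b, e⟩ := h.2
  rw [e, mul_assoc]; exact Dvd.intro _ rfl

theorem Ord.not_sq (h : Ord p G) : ¬ p * p ∣ Nat.card G := fun hd => by
  obtain ⟨a, b, e⟩ := h.2
  have hp := h.prime
  have := h.seven_le
  rw [e, mul_assoc, Nat.mul_dvd_mul_iff_left hp.pos] at hd
  rcases (Nat.Prime.dvd_mul hp).mp hd with h1 | h1
  · have := Nat.le_of_dvd (by norm_num) (hp.dvd_of_dvd_pow h1); omega
  · have := Nat.le_of_dvd (by norm_num) (hp.dvd_of_dvd_pow h1); omega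

/-- elements of order `p` are self-centralising -/
theorem Ord.sc (h : Ord p G) [IsSimpleGroup G] {x g : G} (hx : orderOf x = p)
    (hg : g * x = x * g) : g ∈ zpowers x := by
  obtain ⟨a, b, e⟩ := h.2
  rw [← S1001.result p a b h.prime e x hx]
  exact mem_centralizer_singleton_iff.mpr hg

/-- an element of order prime to `p` commuting with an element of order `p` is trivial -/
theorem Ord.fpf (h : Ord p G) [IsSimpleGroup G] {x g : G} (hx : orderOf x = p)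
    (hg : g * x = x * g) (hp : ¬ p ∣ orderOf g) : g = 1 := by
  have h1 := orderOf_dvd_of_mem_zpowers (h.sc hx hg)
  rw [hx] at h1
  rcases (Nat.dvd_prime h.prime).mp h1 with h2 | h2
  · exact orderOf_eq_one_iff.mp h2
  · exact absurd (h2 ▸ dvd_rfl) hp

/-- a subgroup of order prime to `p` is solvable -/
theorem Ord.solv (h : Ord p G) {H : Subgroup G} (hp : ¬ p ∣ Nat.card H) : Group.IsSolvable H := by
  obtain ⟨a, b, e⟩ := h.2
  have h1 : Nat.card H ∣ 3 ^ a * 2 ^ b := by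
    have := H.card_subgroup_dvd_card
    rw [e, mul_assoc] at this
    exact ((Nat.coprime_comm.mp ((Nat.Prime.coprime_iff_not_dvd h.prime).mpr hp))).dvd_of_dvd_mul_left
      this
  obtain ⟨c, d, hc, hd, e'⟩ := (Nat.dvd_mul).mp h1
  obtain ⟨i, -, rfl⟩ := (Nat.dvd_prime_pow Nat.prime_three).mp hc
  obtain ⟨j, -, rfl⟩ := (Nat.dvd_prime_pow Nat.prime_two).mp hd
  exact S0144.result 3 2 i j Nat.prime_three Nat.prime_two e'.symm

/-- the centraliser of a nontrivial element of order prime to `p` has order prime to `p` -/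
theorem Ord.not_dvd_C1 (h : Ord p G) [IsSimpleGroup G] {g : G} (hg : g ≠ 1)
    (hp : ¬ p ∣ orderOf g) : ¬ p ∣ Nat.card (C1 g) := fun hd => by
  have := Fact.mk h.prime
  obtain ⟨x, hx⟩ := exists_prime_orderOf_dvd_card' p hd
  exact hg (h.fpf ((orderOf_coe x).trans hx) (mem_centralizer_singleton_iff.mp x.2).symm hp)

theorem Ctx0.loc2 (c : Ctx0 p G) {T : Subgroup G} (hT : IsPGroup 2 T) (h1 : T ≠ ⊥) :
    CharPOf 2 (normalizer (T : Set G)) := (charPOf_iff _).mpr (c.ch2.2 T hT h1)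

theorem Ctx.loc3 (c : Ctx p G) {T : Subgroup G} (hT : IsPGroup 3 T) (h1 : T ≠ ⊥) :
    CharPOf 3 (normalizer (T : Set G)) := (charPOf_iff _).mpr (c.ch3.2 T hT h1)

end Cfsg.Agent.PTT
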