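import Cfsg.Agent.PTT.Defs
import Cfsg.Agent.H17.B5a
import Cfsg.Agent.S0243
import Cfsg.Agent.S0245
import Cfsg.Agent.S0246
import Cfsg.Agent.S0280
import Cfsg.Agent.S0495
import Cfsg.Agent.S1163

set_option autoImplicit false
set_option linter.unusedSectionVars false

namespace Cfsg.Agent.PTT

open Subgroup H69 H59

variable {G : Type*} [Group G] [Finite G] {p : ℕ}

namespace FilA

/-- only the primes 2 and 3 -/
def Sm (n : ℕ) : Prop := ∀ r, r.Prime → r ∣ n → r = 3 ∨ r = 2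

theorem pw {n r s : ℕ} (hn : n ≠ 0) (h : ∀ t, t.Prime → t ∣ n → t = r ∨ t = s) (hs : ¬ s ∣ n) : ∃ k, n = r ^ k :=
  ⟨_, Nat.eq_prime_pow_of_unique_prime_dvd hn fun ht hd => (h _ ht hd).resolve_right fun e => hs (e ▸ hd)⟩

theorem le_pow {l : ℕ} (h : l ≤ 3) : 2 ^ l ≤ 8 := Nat.pow_le_pow_right (by decide) h

theorem sm1 {n : ℕ} (h0 : n ≠ 0) (h1 : Sm n) (h2 : Sm (n + 1)) : n ≤ 8 := by
  by_contra c
  have k : ∀ {m}, 8 < m → Sm m → ¬ 2 ∣ m → 3 ∣ m ∧ ∃ b, m = 3 ^ b := fun {m} hm h h' =>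
    let ⟨b, e⟩ := pw (by omega) h h'
    ⟨e ▸ dvd_pow_self 3 (by rintro rfl; omega), b, e⟩
  by_cases h : 2 ∣ n
  · obtain ⟨h3, b, e⟩ := k (by omega) h2 (by omega)
    obtain ⟨l, e'⟩ := pw h0 (fun t ht hd => (h1 t ht hd).symm) (by omega)
    have := le_pow (H17.B5.cat23 (l := l) (b := b) (by omega))
    omega
  · obtain ⟨h3, b, e⟩ := k (by omega) h1 h
    obtain ⟨l, e'⟩ := pw (by omega) (fun t ht hd => (h2 t ht hd).symm) (by omega)
    have := le_pow (H17.B5.cat23 (l := l) (b := b) (by omega))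
    omega

theorem sm2 {n : ℕ} (h0 : n ≠ 0) (h1 : Sm n) (h2 : Sm (n + 2)) : n ≤ 16 := by
  by_cases h : 2 ∣ n
  · obtain ⟨m, rfl⟩ := h
    have := sm1 (n := m) (by omega) (fun r hr hd => h1 r hr (hd.mul_left 2))
      fun r hr hd => h2 r hr (by simpa [mul_add] using hd.mul_left 2)
    omega
  · by_contra c
    obtain ⟨a, e⟩ := pw h0 h1 h
    obtain ⟨b, e'⟩ := pw (by omega) h2 (by omega)
    have : 3 ∣ n := e ▸ dvd_pow_self 3 (by rintro rfl; omega)
    have : 3 ∣ n + 2 := e' ▸ dvd_pow_self 3 (by rintro rfl; omega)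
    omega

theorem cop {d r : ℕ} (hd : d ∣ 6) (hr : r.Prime) (h : ¬ (r = 3 ∨ r = 2)) : r.Coprime d :=
  hr.coprime_iff_not_dvd.2 fun e => h (((hr.dvd_mul (m := 3) (n := 2)).1 (e.trans hd)).imp
    (Nat.prime_dvd_prime_iff_eq hr Nat.prime_three).1 (Nat.prime_dvd_prime_iff_eq hr Nat.prime_two).1)

theorem sm_of (h : Ord p G) {d x : ℕ} (hd : d ∣ 6) (e : x ∣ d * Nat.card G) (hp : ¬ p ∣ x) : Sm x :=
  fun _ hr hx => by_contra fun c => hp (((h.prime_dvd hr ((cop hd hr c).dvd_of_dvd_mul_left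
    (hx.trans e))).resolve_right c) ▸ hx)

theorem sm_sq (h : Ord p G) {d x : ℕ} (hd : d ∣ 6) (e : x * x ∣ d * Nat.card G) : Sm x :=
  sm_of h hd ((Dvd.intro _ rfl).trans e) fun hp => h.not_sq
    ((Nat.Coprime.mul_left (cop hd h.prime (by have := h.seven_le; omega))
      (cop hd h.prime (by have := h.seven_le; omega))).dvd_of_dvd_mul_left ((mul_dvd_mul hp hp).trans e))

theorem ex_n (F : Type) [Field F] [Fintype F] : ∃ n, n ≠ 0 ∧ Fintype.card F = n + 1 :=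
  ⟨Fintype.card F - 1, by have := Fintype.one_lt_card (α := F); omega, by have := Fintype.one_lt_card (α := F); omega⟩

theorem ord2 {F : Type} [Field F] [Fintype F] {n : ℕ} (h0 : n ≠ 0) (hF : Fintype.card F = n + 1) :
    Nat.gcd 2 n * Nat.card (Matrix.ProjectiveSpecialLinearGroup (Fin 2) F) = n * (n + 1) * (n + 2) := by
  have := S0243.result hF 2 le_rfl
  rw [Fin.prod_univ_two, Nat.add_sub_cancel,
    show (n + 1) ^ 2 - (n + 1) ^ ((0 : Fin 2) : ℕ) = n * (n + 2) from Nat.sub_eq_of_eq_add (by simp; ring),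
    show (n + 1) ^ 2 - (n + 1) ^ ((1 : Fin 2) : ℕ) = n * (n + 1) from Nat.sub_eq_of_eq_add (by simp; ring)] at this
  refine Nat.eq_of_mul_eq_mul_left (Nat.pos_of_ne_zero h0) ?_
  rw [mul_left_comm, this]; ring

theorem ord3 {F : Type} [Field F] [Fintype F] {n : ℕ} (h0 : n ≠ 0) (hF : Fintype.card F = n + 1) :
    Nat.gcd 3 n * Nat.card (Matrix.ProjectiveSpecialLinearGroup (Fin 3) F) =
      n * n * ((n + 1) * (n + 1) * ((n + 1) * (n + 2) * (n * n + 3 * n + 3))) := by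
  have := S0243.result hF 3 (by decide)
  rw [Fin.prod_univ_three, Nat.add_sub_cancel,
    show (n + 1) ^ 3 - (n + 1) ^ ((0 : Fin 3) : ℕ) = n * (n * n + 3 * n + 3) from Nat.sub_eq_of_eq_add (by simp; ring),
    show (n + 1) ^ 3 - (n + 1) ^ ((1 : Fin 3) : ℕ) = n * (n + 1) * (n + 2) from Nat.sub_eq_of_eq_add (by simp; ring),
    show (n + 1) ^ 3 - (n + 1) ^ ((2 : Fin 3) : ℕ) = n * (n + 1) * (n + 1) from Nat.sub_eq_of_eq_add (by simp; ring)]
    at this
  refine Nat.eq_of_mul_eq_mul_left (Nat.pos_of_ne_zero h0) ?_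
  rw [mul_left_comm, this]; ring

theorem ordU {F : Type} [Field F] [Fintype F] {n : ℕ} (hF : Fintype.card F = (n + 1) ^ 2) :
    Nat.gcd 3 (n + 2) * Nat.card (Cfsg.PSU 3 F (n + 1)) =
      (n + 1) * (n + 1) * ((n + 2) * (n + 2) * ((n + 1) * n * (n * n + n + 1))) := by
  have := S0280.result hF 3 (by decide)
  rw [Finset.prod_range_succ, Finset.prod_range_succ, Finset.prod_range_one, if_pos (by decide), if_neg (by decide),
    if_pos (by decide), show (n + 1) ^ (1 + 1) - 1 = n * (n + 2) from Nat.sub_eq_of_eq_add (by ring)] at this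
  refine Nat.eq_of_mul_eq_mul_left (show 0 < n + 1 + 1 by omega) ?_
  rw [mul_left_comm, this]; ring

theorem five_q (q : ℕ) : 5 ∣ q ∨ 5 ∣ q ^ 4 - 1 := by
  rcases (by omega : q % 5 = 0 ∨ q % 5 = 1 ∨ q % 5 = 2 ∨ q % 5 = 3 ∨ q % 5 = 4) with h | h
  · exact Or.inl (Nat.dvd_of_mod_eq_zero h)
  · have : q ^ 4 % 5 = 1 := by rcases h with h | h | h | h <;> simp [Nat.pow_mod, h]
    omega

theorem five_two (m : ℕ) : 5 ∣ (2 ^ (2 * m + 1)) ^ 2 + 1 := by
  refine Nat.dvd_of_mod_eq_zero ?_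
  rw [← pow_mul, show (2 * m + 1) * 2 = 4 * m + 2 by ring, pow_add, pow_mul]
  simp [Nat.add_mod, Nat.mul_mod, Nat.pow_mod]

theorem five_of {d k N : ℕ} (hd : d ∣ k) (hk : 0 < k) (h5 : k < 5) (h : 5 ∣ d * N) : 5 ∣ N :=
  ((Nat.prime_five.dvd_mul.1 h).resolve_left fun e => absurd (Nat.le_of_dvd hk (e.trans hd)) (by omega))

end FilA

open FilA

theorem tgt_l2 (h : Ord p G) [IsSimpleGroup G] (F : Type) [Field F] [Fintype F]
    (e : G ≃* Matrix.ProjectiveSpecialLinearGroup (Fin 2) F) : Tgt G := by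
  obtain ⟨n, h0, hF⟩ := ex_n F
  have e1 := ord2 h0 hF
  rw [← Nat.card_congr e.toEquiv] at e1
  have d : Nat.gcd 2 n ∣ 6 := (Nat.gcd_dvd_left _ _).trans (by decide)
  have s0 := sm_of h d (x := n) ⟨_, e1.trans (mul_assoc _ _ _)⟩
  have s1 := sm_of h d (x := n + 1) ⟨n * (n + 2), e1.trans (by ring)⟩
  have s2 := sm_of h d (x := n + 2) ⟨n * (n + 1), e1.trans (by ring)⟩
  have h7 := h.seven_le
  have k : ∀ {x j}, 0 < j → j ≤ 2 → p ∣ x → ¬ p ∣ x + j := fun h1 h2 h3 h4 =>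
    absurd (Nat.le_of_dvd h1 ((Nat.dvd_add_right h3).1 h4)) (by omega)
  have b : n ≤ 16 := by
    by_cases c0 : p ∣ n
    · have := sm1 (n := n + 1) (by omega) (s1 (k one_pos one_le_two c0)) (s2 (k two_pos le_rfl c0))
      omega
    by_cases c1 : p ∣ n + 1
    · exact sm2 h0 (s0 c0) (s2 (k (x := n + 1) one_pos one_le_two c1))
    · exact (sm1 h0 (s0 c0) (s1 c1)).trans (by decide)
  have h5 := h.not_five
  have hp := h.dvd
  have h1 := h.1
  have a7 := h.prime_dvd (r := 7) (by norm_num)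
  have a11 := h.prime_dvd (r := 11) (by norm_num)
  have a13 := h.prime_dvd (r := 13) (by norm_num)
  obtain rfl | rfl | rfl : n = 6 ∨ n = 7 ∨ n = 16 := by
    interval_cases n <;> norm_num at e1 <;> rcases h1 with rfl | rfl | rfl <;> omega
  exacts [.inl ⟨F, _, _, hF, ⟨e⟩⟩, .inr (.inl ⟨F, _, _, hF, ⟨e⟩⟩), .inr (.inr (.inl ⟨F, _, _, hF, ⟨e⟩⟩))]

theorem tgt_l3 (h : Ord p G) [IsSimpleGroup G] (F : Type) [Field F] [Fintype F]
    (e : G ≃* Matrix.ProjectiveSpecialLinearGroup (Fin 3) F) : Tgt G := by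
  obtain ⟨n, h0, hF⟩ := ex_n F
  have e1 := ord3 h0 hF
  rw [← Nat.card_congr e.toEquiv] at e1
  have d : Nat.gcd 3 n ∣ 6 := (Nat.gcd_dvd_left _ _).trans (by decide)
  have b := sm1 h0 (sm_sq h d ⟨_, e1⟩) (sm_sq h d ⟨_, e1.trans (mul_left_comm _ _ _)⟩)
  have h5 := h.not_five
  have h1 := h.1
  have a19 := h.prime_dvd (r := 19) (by norm_num)
  have a73 := h.prime_dvd (r := 73) (by norm_num)
  obtain rfl | rfl : n = 1 ∨ n = 2 := by
    interval_cases n <;> norm_num at e1 <;> omega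
  · have : Fact (Nat.Prime 7) := ⟨by norm_num⟩
    exact .inl ⟨ZMod 7, _, _, ZMod.card 7, S0495.result (by norm_num at e1; exact e1) (ZMod.card 7)⟩
  · exact .inr (.inr (.inr (.inr ⟨F, _, _, hF, ⟨e⟩⟩)))

theorem tgt_u3 (h : Ord p G) [IsSimpleGroup G] (F : Type) [Field F] [Fintype F] (q : ℕ)
    (hq : Fintype.card F = q ^ 2) (e : G ≃* Cfsg.PSU 3 F q) : Tgt G := by
  have h2 := Fintype.one_lt_card (α := F)
  obtain ⟨n, rfl⟩ : ∃ n, q = n + 1 := Nat.exists_eq_succ_of_ne_zero (by rintro rfl; omega)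
  have e1 := ordU hq
  rw [← Nat.card_congr e.toEquiv] at e1
  have d : Nat.gcd 3 (n + 2) ∣ 6 := (Nat.gcd_dvd_left _ _).trans (by decide)
  have b : n ≤ 7 := Nat.le_of_succ_le_succ
    (sm1 (n := n + 1) (by omega) (sm_sq h d ⟨_, e1⟩) (sm_sq h d ⟨_, e1.trans (mul_left_comm _ _ _)⟩))
  have h5 := h.not_five
  have h1 := h.1
  have hp := h.dvd
  have a19 := h.prime_dvd (r := 19) (by norm_num)
  have a43 := h.prime_dvd (r := 43) (by norm_num)
  obtain rfl : n = 2 := by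
    interval_cases n <;> norm_num at e1 <;> rcases h1 with rfl | rfl | rfl <;> omega
  exact .inr (.inr (.inr (.inl ⟨F, _, _, hq, ⟨e⟩⟩)))

theorem five_psp (F : Type) [Field F] [Fintype F] (e : G ≃* Cfsg.PSp 2 F) : 5 ∣ Nat.card G := by
  have c := (center (Matrix.symplecticGroup (Fin 2) F)).card_eq_card_quotient_mul_card_subgroup
  rw [S0245.result rfl, S0246.result rfl 2 one_le_two, mul_comm (Nat.card _)] at c
  rw [Nat.card_congr e.toEquiv]
  refine five_of (Nat.gcd_dvd_left 2 _) two_pos (by decide) (Dvd.dvd.trans ?_ (dvd_of_eq c))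
  rcases five_q (Fintype.card F) with h | h
  · exact (h.trans (dvd_pow_self _ (by decide))).mul_right _
  · exact (h.trans (Finset.dvd_prod_of_mem (fun i => Fintype.card F ^ (2 * (i + 1)) - 1) (a := 1)
      (Finset.mem_range.2 one_lt_two))).mul_left _

theorem five_sz (h : Cfsg.IsSuzuki G) : 5 ∣ Nat.card G := by
  obtain ⟨-, m, -, e⟩ := h
  rw [e]
  exact ((five_two m).mul_left _).mul_right _

theorem five_isoSz (h : Cfsg.Lie.IsoSuzuki G) : 5 ∣ Nat.card G := by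
  obtain ⟨F, _, _, m, hm, hF, ⟨e⟩⟩ := h
  rw [Nat.card_congr e.toEquiv, (S1163.result hm hF).1]
  exact (five_two m).mul_left _

theorem five_psu (F : Type) [Field F] [Fintype F] {q m : ℕ} (hq : Fintype.card F = q ^ 2)
    (h23 : q = 2 ∨ q = 3) (hm : 4 ≤ m) (e : G ≃* Cfsg.PSU m F q) : 5 ∣ Nat.card G := by
  rw [Nat.card_congr e.toEquiv]
  refine five_of (k := q + 1) dvd_rfl (by omega) (by omega)
    (five_of (Nat.gcd_dvd_right m (q + 1)) (by omega) (by omega) ?_)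
  rw [S0280.result hq m (by omega)]
  refine (Dvd.dvd.trans ?_ (Finset.dvd_prod_of_mem _ (a := 3) (Finset.mem_range.2 hm))).mul_left _
  rcases h23 with rfl | rfl <;> decide

theorem five_psl (F : Type) [Field F] [Fintype F] {m : ℕ}
    (h23 : Fintype.card F = 2 ∨ Fintype.card F = 3) (hm : 4 ≤ m)
    (e : G ≃* Matrix.ProjectiveSpecialLinearGroup (Fin m) F) : 5 ∣ Nat.card G := by
  rw [Nat.card_congr e.toEquiv]
  refine five_of (k := Fintype.card F - 1) dvd_rfl (by omega) (by omega)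
    (five_of (Nat.gcd_dvd_right m (Fintype.card F - 1)) (by omega) (by omega) ?_)
  rw [S0243.result rfl m (by omega)]
  obtain ⟨j, rfl⟩ := Nat.exists_eq_add_of_le' hm
  refine Dvd.dvd.trans ?_ (Finset.dvd_prod_of_mem _ (Finset.mem_univ (⟨j, by omega⟩ : Fin (j + 4))))
  change 5 ∣ _ ^ (j + 4) - _ ^ j
  rcases h23 with h | h <;> rw [h, pow_add] <;> omega

theorem IsoL2q.card {q : ℕ} (h : IsoL2q q G) :
    (q = 7 → Nat.card G = 168) ∧ (q = 8 → Nat.card G = 504) ∧ (q = 17 → Nat.card G = 2448) := by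
  obtain ⟨F, _, _, hF, ⟨e⟩⟩ := h
  rw [Nat.card_congr e.toEquiv]
  refine ⟨?_, ?_, ?_⟩ <;> rintro rfl <;> have := ord2 (by decide) hF <;> norm_num at this <;> omega

end Cfsg.Agent.PTT
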